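import Mathlib

set_option autoImplicit false

/-!
Minimal degree of primitive groups: the uniprimitive case (after Babai).
-/

namespace H95.MinDeg

open scoped Pointwise

variable {G Ω : Type*} [Group G] [MulAction G Ω]

/-- two pairs in the same orbit -/
def Ob (G : Type*) {Ω : Type*} [Group G] [MulAction G Ω] (a b c d : Ω) : Prop :=
  ∃ g : G, g • a = c ∧ g • b = d

lemma Ob.refl (a b : Ω) : Ob G a b a b := ⟨1, one_smul _ _, one_smul _ _⟩

lemma Ob.symm {a b c d : Ω} (h : Ob G a b c d) : Ob G c d a b := by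
  obtain ⟨g, h1, h2⟩ := h
  exact ⟨g⁻¹, by rw [← h1, inv_smul_smul], by rw [← h2, inv_smul_smul]⟩

lemma Ob.trans {a b c d e f : Ω} (h : Ob G a b c d) (h' : Ob G c d e f) : Ob G a b e f := by
  obtain ⟨g, h1, h2⟩ := h
  obtain ⟨k, h3, h4⟩ := h'
  exact ⟨k * g, by rw [mul_smul, h1, h3], by rw [mul_smul, h2, h4]⟩

lemma Ob.swap {a b c d : Ω} (h : Ob G a b c d) : Ob G b a d c := by
  obtain ⟨g, h1, h2⟩ := h
  exact ⟨g, h2, h1⟩

lemma Ob.smul (g : G) (a b : Ω) : Ob G a b (g • a) (g • b) := ⟨g, rfl, rfl⟩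

lemma equiv_trivial (hprim : MulAction.IsPreprimitive G Ω) (r : Ω → Ω → Prop) (hr : Equivalence r)
    (hinv : ∀ (g : G) x y, r x y → r (g • x) (g • y)) : (∀ x y, r x y → x = y) ∨ ∀ x y, r x y := by
  by_cases h : ∀ x y, r x y → x = y
  · exact Or.inl h
  right
  push Not at h
  obtain ⟨x, y, hxy, hne⟩ := h
  have hmem : ∀ (g : G) z, z ∈ g • {w | r x w} ↔ r (g • x) z := by
    intro g z
    rw [Set.mem_smul_set_iff_inv_smul_mem]
    constructor
    · intro h
      have := hinv g _ _ h
      rwa [smul_inv_smul] at this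
    · intro h
      have := hinv g⁻¹ _ _ h
      rwa [inv_smul_smul] at this
  have hB : MulAction.IsBlock G {w | r x w} := by
    intro g₁ g₂ hne
    rw [Set.disjoint_left]
    intro z h1 h2
    apply hne
    ext w
    rw [hmem] at h1 h2
    rw [hmem, hmem]
    have h3 : r (g₁ • x) (g₂ • x) := hr.trans h1 (hr.symm h2)
    exact ⟨fun h => hr.trans (hr.symm h3) h, fun h => hr.trans h3 h⟩
  rcases hB.subsingleton_or_eq_univ with h | h
  · exact absurd (h (hr.refl x) hxy) hne
  · have hall : ∀ z, r x z := fun z => by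
      have : z ∈ {w | r x w} := by rw [h]; trivial
      exact this
    exact fun a b => hr.trans (hr.symm (hall a)) (hall b)

variable [Finite G] [Fintype Ω]

section

variable {α β : Ω}

/-- the orbital of `(α, β)` is connected -/
lemma conn (hprim : MulAction.IsPreprimitive G Ω) (hne : α ≠ β) {P : Ω → Prop}
    (hP : ∀ a b, Ob G α β a b → (P a ↔ P b)) {x : Ω} (hx : P x) (y : Ω) : P y := by
  let r : Ω → Ω → Prop := fun x y => ∀ P : Ω → Prop, (∀ a b, Ob G α β a b → (P a ↔ P b)) → (P x ↔ P y)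
  have hr : Equivalence r := ⟨fun x P _ => Iff.rfl, fun h P hP => (h P hP).symm,
    fun h h' P hP => (h P hP).trans (h' P hP)⟩
  have hinv : ∀ (g : G) x y, r x y → r (g • x) (g • y) := by
    intro g x y h P hP
    exact h (fun z => P (g • z)) fun a b hab => hP _ _ (hab.trans (Ob.smul g a b))
  rcases equiv_trivial hprim r hr hinv with h | h
  · exact absurd (h α β fun P hP => hP _ _ (Ob.refl α β)) hne
  · exact (h x y P hP).1 hx

/-- closed under out-edges implies closed under in-edges -/
lemma out_closed (hprim : MulAction.IsPreprimitive G Ω) {P : Ω → Prop}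
    (hP : ∀ a b, Ob G α β a b → P a → P b) : ∀ a b, Ob G α β a b → (P a ↔ P b) := by
  intro a b hab
  refine ⟨hP a b hab, fun hb => ?_⟩
  obtain ⟨k, hk⟩ := MulAction.exists_smul_eq G a b
  have hstep : ∀ i : ℕ, Ob G α β (k ^ i • a) (k ^ (i + 1) • a) := by
    intro i
    have h1 := hab.trans (Ob.smul (k ^ i) a b)
    rwa [← hk, smul_smul, ← pow_succ] at h1
  have hall : ∀ i : ℕ, P (k ^ (i + 1) • a) := by
    intro i
    induction i with
    | zero => rw [zero_add, pow_one, hk]; exact hb
    | succ i ih => exact hP _ _ (hstep (i + 1)) ih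
  have h2 := hall (orderOf k - 1)
  rwa [Nat.sub_add_cancel (orderOf_pos k), pow_orderOf_eq_one, one_smul] at h2

end

open Classical in
/-- the points distinguishing `x` and `y` -/
noncomputable def Dd (G : Type*) {Ω : Type*} [Group G] [MulAction G Ω] [Fintype Ω] (x y : Ω) : Finset Ω :=
  Finset.univ.filter fun γ => ¬ Ob G x γ y γ

lemma mem_Dd {x y γ : Ω} : γ ∈ Dd G x y ↔ ¬ Ob G x γ y γ := by
  classical
  rw [Dd, Finset.mem_filter]
  exact ⟨fun h => h.2, fun h => ⟨Finset.mem_univ _, h⟩⟩

lemma card_Dd {a b c d : Ω} (h : Ob G a b c d) : (Dd G a b).card = (Dd G c d).card := by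
  classical
  obtain ⟨g, rfl, rfl⟩ := h
  apply Finset.card_bij (fun γ _ => g • γ)
  · intro γ hγ
    rw [mem_Dd] at hγ ⊢
    intro h
    apply hγ
    exact (Ob.smul g a γ).trans (h.trans (Ob.smul g b γ).symm)
  · intro x _ y _ h
    exact MulAction.injective g h
  · intro γ hγ
    refine ⟨g⁻¹ • γ, ?_, smul_inv_smul _ _⟩
    rw [mem_Dd] at hγ ⊢
    intro h
    apply hγ
    have h1 := Ob.smul g a (g⁻¹ • γ)
    have h2 := Ob.smul g b (g⁻¹ • γ)
    rw [smul_inv_smul] at h1 h2
    exact h1.symm.trans (h.trans h2)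

open Classical in
/-- neighbours -/
noncomputable def Nb (E : Ω → Ω → Prop) (x : Ω) : Finset Ω := Finset.univ.filter (E x)

omit [Finite G] in
lemma mem_Nb {E : Ω → Ω → Prop} {x y : Ω} : y ∈ Nb E x ↔ E x y := by
  classical
  simp [Nb]

lemma card_Nb (hprim : MulAction.IsPreprimitive G Ω) {E : Ω → Ω → Prop}
    (hE : ∀ (g : G) x y, E x y → E (g • x) (g • y)) (x y : Ω) : (Nb E x).card = (Nb E y).card := by
  classical
  obtain ⟨g, rfl⟩ := MulAction.exists_smul_eq G x y
  apply Finset.card_bij (fun γ _ => g • γ)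
  · intro γ hγ
    rw [mem_Nb] at hγ ⊢
    exact hE g _ _ hγ
  · intro x _ y _ h
    exact MulAction.injective g h
  · intro γ hγ
    refine ⟨g⁻¹ • γ, ?_, smul_inv_smul _ _⟩
    rw [mem_Nb] at hγ ⊢
    have := hE g⁻¹ _ _ hγ
    rwa [inv_smul_smul] at this

/-- the neighbourhoods of `x` and `y` differ only in distinguishing points -/
lemma two_mul_card_sdiff (hprim : MulAction.IsPreprimitive G Ω) {E : Ω → Ω → Prop} [DecidableEq Ω]
    (hE : ∀ (g : G) x y, E x y → E (g • x) (g • y)) (x y : Ω) :
    2 * (Nb E x \ Nb E y).card ≤ (Dd G x y).card := by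
  have h1 : (Nb E x \ Nb E y).card = (Nb E y \ Nb E x).card :=
    Finset.card_sdiff_comm (card_Nb hprim hE x y)
  have h2 : Disjoint (Nb E x \ Nb E y) (Nb E y \ Nb E x) := by
    rw [Finset.disjoint_left]
    intro z h3 h4
    rw [Finset.mem_sdiff] at h3 h4
    exact h3.2 h4.1
  have h3 : (Nb E x \ Nb E y) ∪ (Nb E y \ Nb E x) ⊆ Dd G x y := by
    intro z hz
    rw [mem_Dd]
    rintro ⟨g, hg1, hg2⟩
    rw [Finset.mem_union, Finset.mem_sdiff, Finset.mem_sdiff, mem_Nb, mem_Nb] at hz
    rcases hz with ⟨h4, h5⟩ | ⟨h4, h5⟩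
    · apply h5
      have := hE g _ _ h4
      rwa [hg1, hg2] at this
    · apply h5
      have := hE g⁻¹ _ _ h4
      rwa [← hg1, inv_smul_smul, ← hg2, inv_smul_smul] at this
  have h4 := Finset.card_le_card h3
  rw [Finset.card_union_of_disjoint h2, ← h1] at h4
  omega

/-- the number of crossing edges -/
lemma card_le (hprim : MulAction.IsPreprimitive G Ω) {α β : Ω} (hne : α ≠ β) :
    Fintype.card Ω ≤ 2 * ((Nb (Ob G α β) α).card * (Dd G α β).card) := by
  classical
  set E := Ob G α β with hEd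
  have hE : ∀ (g : G) x y, E x y → E (g • x) (g • y) := fun g x y h => h.trans (Ob.smul g x y)
  -- crossing edges with respect to `w`
  let Cr : Ω → Finset (Ω × Ω) := fun w => Finset.univ.filter fun p => E p.1 p.2 ∧ ¬ Ob G p.1 w p.2 w
  have hCr : ∀ w (p : Ω × Ω), p ∈ Cr w ↔ E p.1 p.2 ∧ ¬ Ob G p.1 w p.2 w := by
    intro w p
    simp [Cr]
  have hcard : ∀ w w', (Cr w).card = (Cr w').card := by
    intro w w'
    obtain ⟨g, rfl⟩ := MulAction.exists_smul_eq G w w'
    apply Finset.card_bij (fun p _ => (g • p.1, g • p.2))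
    · intro p hp
      rw [hCr] at hp ⊢
      refine ⟨hE g _ _ hp.1, fun h => hp.2 ?_⟩
      exact (Ob.smul g _ _).trans (h.trans (Ob.smul g _ _).symm)
    · intro x _ y _ h
      rw [Prod.mk.injEq] at h
      exact Prod.ext (MulAction.injective g h.1) (MulAction.injective g h.2)
    · intro p hp
      rw [hCr] at hp
      refine ⟨(g⁻¹ • p.1, g⁻¹ • p.2), ?_, ?_⟩
      · rw [hCr]
        refine ⟨hE g⁻¹ _ _ hp.1, fun h => hp.2 ?_⟩
        have h1 := Ob.smul g (g⁻¹ • p.1) w
        have h2 := Ob.smul g (g⁻¹ • p.2) w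
        rw [smul_inv_smul] at h1 h2
        exact h1.symm.trans (h.trans h2)
      · simp
  -- double counting
  have hsum : ∑ w, (Cr w).card = (Fintype.card Ω * (Nb E α).card) * (Dd G α β).card := by
    have h1 : ∑ w, (Cr w).card = ∑ p ∈ Finset.univ.filter (fun p : Ω × Ω => E p.1 p.2),
        (Dd G p.1 p.2).card := by
      have e1 : ∀ w, (Cr w).card = ∑ p ∈ Finset.univ.filter (fun p : Ω × Ω => E p.1 p.2),
          if ¬ Ob G p.1 w p.2 w then 1 else 0 := by
        intro w
        rw [← Finset.card_filter, Finset.filter_filter]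
      rw [Finset.sum_congr rfl (fun w _ => e1 w), Finset.sum_comm]
      refine Finset.sum_congr rfl fun p _ => ?_
      rw [← Finset.card_filter]; rfl
    rw [h1, Finset.sum_congr rfl (g := fun _ => (Dd G α β).card) (by
      intro p hp
      rw [Finset.mem_filter] at hp
      exact (card_Dd hp.2).symm), Finset.sum_const, smul_eq_mul]
    congr 1
    have h2 : (Finset.univ.filter (fun p : Ω × Ω => E p.1 p.2)).card = ∑ x, (Nb E x).card := by
      rw [Finset.card_filter, Fintype.sum_prod_type]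
      refine Finset.sum_congr rfl fun x _ => ?_
      rw [← Finset.card_filter]; rfl
    rw [h2, Finset.sum_congr rfl (fun x _ => card_Nb hprim hE x α), Finset.sum_const, smul_eq_mul,
      Finset.card_univ]
  have hCα : (Cr α).card = (Nb E α).card * (Dd G α β).card := by
    rw [Finset.sum_congr rfl (fun w _ => hcard w α), Finset.sum_const, smul_eq_mul,
      Finset.card_univ, mul_assoc] at hsum
    exact Nat.eq_of_mul_eq_mul_left (Fintype.card_pos_iff.2 ⟨α⟩) hsum
  rw [← hCα]
  -- each point is on a crossing edge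
  have hcross : ∀ x, ∃ y, (E x y ∨ E y x) ∧ ¬ Ob G x α y α := by
    intro x
    by_contra hcon
    push Not at hcon
    have hcl : ∀ z, Ob G x α z α → ∀ y, (E z y ∨ E y z) → Ob G x α y α := by
      rintro z ⟨g, rfl, hg⟩ y hy
      have h1 : Ob G x α (g⁻¹ • y) α := by
        apply hcon
        rcases hy with hy | hy
        · left
          have := hE g⁻¹ _ _ hy
          rwa [inv_smul_smul] at this
        · right
          have := hE g⁻¹ _ _ hy
          rwa [inv_smul_smul] at this
      have h2 := Ob.smul g (g⁻¹ • y) α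
      rw [smul_inv_smul, hg] at h2
      exact h1.trans h2
    have hall := conn (P := fun z => Ob G x α z α) hprim hne (fun a b hab =>
      ⟨fun h => hcl a h b (Or.inl hab), fun h => hcl b h a (Or.inr hab)⟩) (Ob.refl x α)
    obtain ⟨g, hg1, hg2⟩ := hall α
    have hxα : x = α := MulAction.injective g (hg1.trans hg2.symm)
    obtain ⟨k, hk1, hk2⟩ := hall β
    rw [hxα, hk2] at hk1
    exact hne hk1
  have h1 : (Finset.univ : Finset Ω) ⊆ (Cr α).image Prod.fst ∪ (Cr α).image Prod.snd := by
    intro x _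
    obtain ⟨y, hy | hy, hxy⟩ := hcross x
    · exact Finset.mem_union_left _ (Finset.mem_image.2 ⟨(x, y), (hCr _ _).2 ⟨hy, hxy⟩, rfl⟩)
    · exact Finset.mem_union_right _ (Finset.mem_image.2 ⟨(y, x), (hCr _ _).2 ⟨hy, fun h => hxy h.symm⟩, rfl⟩)
  have h2 := Finset.card_le_card h1
  rw [Finset.card_univ] at h2
  have h3 := Finset.card_union_le ((Cr α).image Prod.fst) ((Cr α).image Prod.snd)
  have h4 : ((Cr α).image Prod.fst).card ≤ (Cr α).card := Finset.card_image_le
  have h5 : ((Cr α).image Prod.snd).card ≤ (Cr α).card := Finset.card_image_le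
  omega

/-- **Babai**: in a primitive group which is not doubly transitive distinct points are distinguished by
many points. -/
theorem uniprimitive (hprim : MulAction.IsPreprimitive G Ω) {α β : Ω} (hne : α ≠ β)
    (hδ : ∃ δ, δ ≠ α ∧ ¬ Ob G α β α δ) :
    Fintype.card Ω ≤ (2 * (Dd G α β).card + 1) ^ 2 := by
  classical
  by_contra hcon
  push Not at hcon
  set m := (Dd G α β).card with hm
  set E := Ob G α β with hEd
  set E' : Ω → Ω → Prop := fun x y => E y x with hE'd
  have hE : ∀ (g : G) x y, E x y → E (g • x) (g • y) := fun g x y h => h.trans (Ob.smul g x y)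
  have hE' : ∀ (g : G) x y, E' x y → E' (g • x) (g • y) := fun g x y h => hE g y x h
  have hcardle := card_le hprim hne (G := G)
  rw [← hEd, ← hm] at hcardle
  set N := (Nb E α).card with hN
  have hNall : ∀ x, (Nb E x).card = N := fun x => card_Nb hprim hE x α
  have hNbig : 2 * m + 2 < N := by nlinarith
  -- distinguishing points of edges
  have hDe : ∀ x y, E x y → (Dd G x y).card = m := fun x y h => (card_Dd h).symm
  have hout : ∀ x y, E x y → 2 * (Nb E x \ Nb E y).card ≤ m := fun x y h => by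
    rw [← hDe x y h]; exact two_mul_card_sdiff hprim hE x y
  have hin : ∀ x y, E x y → 2 * (Nb E' x \ Nb E' y).card ≤ m := fun x y h => by
    rw [← hDe x y h]; exact two_mul_card_sdiff hprim hE' x y
  have hout' : ∀ x y, E x y → 2 * (Nb E y \ Nb E x).card ≤ m := fun x y h => by
    have h1 : (Nb E x \ Nb E y).card = (Nb E y \ Nb E x).card :=
      Finset.card_sdiff_comm (card_Nb hprim hE x y)
    rw [← h1]; exact hout x y h
  set R := Nb E α with hR
  have hinter : ∀ z, (Nb E z ∩ R).card + (Nb E z \ R).card = N := fun z => by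
    rw [Finset.card_inter_add_card_sdiff]; exact hNall z
  -- in-degrees inside `R`
  have hd : ∀ y ∈ R, ∀ y' ∈ R, (Nb E' y ∩ R).card = (Nb E' y' ∩ R).card := by
    intro y hy y' hy'
    rw [mem_Nb] at hy hy'
    obtain ⟨g, hg1, rfl⟩ := hy.symm.trans hy'
    apply Finset.card_bij (fun γ _ => g • γ)
    · intro γ hγ
      rw [Finset.mem_inter, mem_Nb, mem_Nb] at hγ ⊢
      refine ⟨hE' g _ _ hγ.1, ?_⟩
      have := hE g _ _ hγ.2
      rwa [hg1] at this
    · intro x _ y _ h
      exact MulAction.injective g h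
    · intro γ hγ
      rw [Finset.mem_inter, mem_Nb, mem_Nb] at hγ
      refine ⟨g⁻¹ • γ, ?_, smul_inv_smul _ _⟩
      rw [Finset.mem_inter, mem_Nb, mem_Nb]
      have h1 := hE' g⁻¹ _ _ hγ.1
      have h2 := hE g⁻¹ _ _ hγ.2
      rw [inv_smul_smul] at h1
      have h3 : g⁻¹ • α = α := by rw [inv_smul_eq_iff, hg1]
      rw [h3] at h2
      exact ⟨h1, h2⟩
  have hdc : ∀ S T : Finset Ω, ∑ y ∈ S, (Nb E' y ∩ T).card = ∑ z ∈ T, (Nb E z ∩ S).card := by
    intro S T
    have e1 : ∀ y ∈ S, (Nb E' y ∩ T).card = ∑ z ∈ T, if E z y then 1 else 0 := by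
      intro y _
      rw [← Finset.card_filter]
      congr 1
      ext z
      rw [Finset.mem_inter, mem_Nb, Finset.mem_filter]
      exact and_comm
    have e2 : ∀ z ∈ T, (Nb E z ∩ S).card = ∑ y ∈ S, if E z y then 1 else 0 := by
      intro z _
      rw [← Finset.card_filter]
      congr 1
      ext y
      rw [Finset.mem_inter, mem_Nb, Finset.mem_filter]
      exact and_comm
    rw [Finset.sum_congr rfl e1, Finset.sum_congr rfl e2, Finset.sum_comm]
  have hRin : ∀ y ∈ R, 2 * N ≤ 2 * (Nb E' y ∩ R).card + m := by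
    intro y hy
    have h1 := hdc R R
    rw [Finset.sum_congr rfl (fun y' hy' => hd y' hy' y hy), Finset.sum_const, smul_eq_mul] at h1
    have h2 : ∑ z ∈ R, 2 * N ≤ ∑ z ∈ R, (2 * (Nb E z ∩ R).card + m) := by
      apply Finset.sum_le_sum
      intro z hz
      rw [mem_Nb] at hz
      have h3 := hinter z
      have h4 := hout' α z hz
      rw [← hR] at h4
      omega
    have h6 : ∑ z ∈ R, 2 * (Nb E z ∩ R).card = 2 * (R.card * (Nb E' y ∩ R).card) := by
      rw [← Finset.mul_sum, ← h1]
    rw [Finset.sum_add_distrib, h6, Finset.sum_const, Finset.sum_const,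
      smul_eq_mul, smul_eq_mul] at h2
    have h5 : R.card * (2 * N) ≤ R.card * (2 * (Nb E' y ∩ R).card + m) := by
      calc R.card * (2 * N) ≤ 2 * (R.card * (Nb E' y ∩ R).card) + R.card * m := h2
        _ = R.card * (2 * (Nb E' y ∩ R).card + m) := by ring
    exact Nat.le_of_mul_le_mul_left h5 (Finset.card_pos.2 ⟨y, hy⟩)
  have hstep : ∀ y z, E y z → ∀ a, 2 * N ≤ 2 * (Nb E' y ∩ R).card + a →
      2 * N ≤ 2 * (Nb E' z ∩ R).card + a + m := by
    intro y z hyz a h1
    have h2 := hin y z hyz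
    have h3 : (Nb E' y ∩ R).card ≤ (Nb E' z ∩ R).card + (Nb E' y \ Nb E' z).card := by
      have : Nb E' y ∩ R ⊆ (Nb E' z ∩ R) ∪ (Nb E' y \ Nb E' z) := by
        intro w hw
        rw [Finset.mem_inter] at hw
        rw [Finset.mem_union, Finset.mem_inter, Finset.mem_sdiff]
        by_cases h : w ∈ Nb E' z
        · exact Or.inl ⟨h, hw.2⟩
        · exact Or.inr ⟨hw.1, h⟩
      exact (Finset.card_le_card this).trans (Finset.card_union_le _ _)
    omega
  -- everything is at distance at most two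
  have hall : ∀ z, z ∈ R ∨ ∃ y ∈ R, E y z := by
    have hclosed : ∀ a b, Ob G α β a b → (a ∈ R ∨ ∃ y ∈ R, E y a) → (b ∈ R ∨ ∃ y ∈ R, E y b) := by
      rintro a b hab (ha | ⟨y, hy, hya⟩)
      · exact Or.inr ⟨a, ha, hab⟩
      · right
        have h1 := hstep a b hab (m + m) (by
          have := hstep y a hya m (hRin y hy)
          omega)
        have h2 : 0 < (Nb E' b ∩ R).card := by omega
        obtain ⟨w, hw⟩ := Finset.card_pos.1 h2
        rw [Finset.mem_inter, mem_Nb] at hw
        exact ⟨w, hw.2, hw.1⟩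
    intro z
    exact conn (P := fun z => z ∈ R ∨ ∃ y ∈ R, E y z) hprim hne (out_closed hprim hclosed)
      (x := β) (Or.inl (mem_Nb.2 (Ob.refl α β))) z
  -- few points outside `R`
  have hWin : ∀ z, z ∉ R → N ≤ 2 * (Nb E' z ∩ R).card := by
    intro z hz
    obtain ⟨y, hy, hyz⟩ := (hall z).resolve_left hz
    have := hstep y z hyz m (hRin y hy)
    omega
  set W := (Finset.univ : Finset Ω) \ R with hW
  have hWcard : W.card ≤ m := by
    have h1 : ∑ z ∈ W, N ≤ ∑ z ∈ W, 2 * (Nb E' z ∩ R).card := by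
      apply Finset.sum_le_sum
      intro z hz
      rw [hW, Finset.mem_sdiff] at hz
      exact hWin z hz.2
    rw [← Finset.mul_sum, hdc W R, Finset.mul_sum, Finset.sum_const, smul_eq_mul] at h1
    have h2 : ∑ z ∈ R, 2 * (Nb E z ∩ W).card ≤ ∑ z ∈ R, m := by
      apply Finset.sum_le_sum
      intro z hz
      rw [mem_Nb] at hz
      have h3 : Nb E z ∩ W = Nb E z \ R := by
        ext w
        simp only [Finset.mem_inter, Finset.mem_sdiff, hW, Finset.mem_univ, true_and]
      rw [h3]; exact hout' α z hz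
    rw [Finset.sum_const, smul_eq_mul] at h2
    have h3 : N * W.card ≤ N * m := by
      calc N * W.card = W.card * N := mul_comm _ _
        _ ≤ _ := h1
        _ ≤ R.card * m := h2
    exact Nat.le_of_mul_le_mul_left h3 (by omega)
  -- `E` is symmetric
  have hirr : ∀ x, ¬ E x x := by
    rintro x ⟨g, h1, h2⟩
    exact hne (MulAction.injective g (h1.trans h2.symm))
  have hsym : ∀ x y, E x y → E y x := by
    have hα : α ∉ R := fun h => hirr α (mem_Nb.1 h)
    obtain ⟨y, hy, hyα⟩ := (hall α).resolve_left hα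
    rw [mem_Nb] at hy
    intro a b hab
    exact hyα.trans (hy.symm.trans hab).swap
  -- the complementary relation
  have hUcard : ∀ x, (Finset.univ.filter fun y => ¬ E x y).card ≤ m := by
    intro x
    have h1 : (Finset.univ.filter fun y => ¬ E x y) = Finset.univ \ Nb E x := by
      ext y; simp [mem_Nb]
    rw [h1, Finset.card_sdiff_of_subset (Finset.subset_univ _), hNall]
    rw [hW, Finset.card_sdiff_of_subset (Finset.subset_univ _)] at hWcard
    exact hWcard
  have hUtrans : ∀ x y z, ¬ E x y → ¬ E y z → ¬ E x z := by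
    intro x y z hxy hyz hxz
    -- every point is reachable
    have hre : ∀ b, ∃ γ, ¬ E x γ ∧ ¬ E γ b := by
      intro b
      by_cases hb : E x b
      · obtain ⟨g, hg1, hg2⟩ := hxz.symm.trans hb
        refine ⟨g • y, fun h => hxy ?_, fun h => hyz ?_⟩
        · have := hE g⁻¹ _ _ h
          rwa [inv_smul_smul, ← hg1, inv_smul_smul] at this
        · have := hE g⁻¹ _ _ h
          rwa [inv_smul_smul, ← hg2, inv_smul_smul] at this
      · exact ⟨b, hb, hirr b⟩
    have hsub : (Finset.univ : Finset Ω) ⊆ (Finset.univ.filter fun y => ¬ E x y).biUnion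
        (fun γ => Finset.univ.filter fun y => ¬ E γ y) := by
      intro b _
      obtain ⟨γ, h1, h2⟩ := hre b
      rw [Finset.mem_biUnion]
      exact ⟨γ, by simp [h1], by simp [h2]⟩
    have h1 := Finset.card_le_card hsub
    rw [Finset.card_univ] at h1
    have h2 := Finset.card_biUnion_le_card_mul (Finset.univ.filter fun y => ¬ E x y)
      (fun γ => Finset.univ.filter fun y => ¬ E γ y) m (fun γ _ => hUcard γ)
    have h3 : (Finset.univ.filter fun y => ¬ E x y).card * m ≤ m * m :=
      Nat.mul_le_mul_right m (hUcard x)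
    nlinarith
  have heq : Equivalence (fun x y => ¬ E x y) :=
    ⟨hirr, fun h h' => h (hsym _ _ h'), fun h h' => hUtrans _ _ _ h h'⟩
  rcases equiv_trivial hprim _ heq (fun g x y h h' => h (by
    have := hE g⁻¹ _ _ h'
    rwa [inv_smul_smul, inv_smul_smul] at this)) with h | h
  · obtain ⟨δ, hδ1, hδ2⟩ := hδ
    exact hδ1 (h α δ hδ2).symm
  · exact h α β (Ob.refl α β)

end H95.MinDeg
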