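import Mathlib
import Cfsg.Agent.Lib.H95.MinDeg

set_option autoImplicit false

/-!
Minimal degree of primitive groups: the doubly transitive case.
-/

namespace H95.MinDeg

open Equiv

/-- two permutations whose supports meet in one point have a three-cycle as commutator -/
lemma three_cycle {Ω : Type*} [Fintype Ω] [DecidableEq Ω] (a b : Perm Ω) (z : Ω)
    (hz : ∀ w, (a w ≠ w ∧ b w ≠ w) ↔ w = z) : (a * b * a⁻¹ * b⁻¹).IsThreeCycle := by
  have haz : a z ≠ z := ((hz z).2 rfl).1
  have hbz : b z ≠ z := ((hz z).2 rfl).2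
  have ha : ∀ w, w ≠ z → b w ≠ w → a w = w := fun w h h' => by
    by_contra hcon; exact h ((hz w).1 ⟨hcon, h'⟩)
  have hb : ∀ w, w ≠ z → a w ≠ w → b w = w := fun w h h' => by
    by_contra hcon; exact h ((hz w).1 ⟨h', hcon⟩)
  have aai : ∀ w, a (a⁻¹ w) = w := fun w => a.apply_symm_apply w
  have bbi : ∀ w, b (b⁻¹ w) = w := fun w => b.apply_symm_apply w
  have aia : ∀ w, a⁻¹ (a w) = w := fun w => a.symm_apply_apply w
  have bib : ∀ w, b⁻¹ (b w) = w := fun w => b.symm_apply_apply w
  have hbaz : b (a z) = a z := hb (a z) haz (fun h => haz (a.injective h))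
  have habz : a (b z) = b z := ha (b z) hbz (fun h => hbz (b.injective h))
  have hne : a z ≠ b z := fun h => by
    rw [← h] at habz
    exact haz (a.injective habz)
  have c : ∀ w, (a * b * a⁻¹ * b⁻¹) w = a (b (a⁻¹ (b⁻¹ w))) := fun w => rfl
  have hsupp : (a * b * a⁻¹ * b⁻¹).support = {z, a z, b z} := by
    ext w
    rw [Perm.mem_support, c, Finset.mem_insert, Finset.mem_insert, Finset.mem_singleton]
    constructor
    · intro h
      by_contra hcon
      push Not at hcon
      obtain ⟨h1, h2, h3⟩ := hcon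
      apply h
      by_cases hbw : b w = w
      · have e1 : b⁻¹ w = w := by conv_lhs => rw [← hbw, bib]
        rw [e1]
        by_cases haw : a w = w
        · have e2 : a⁻¹ w = w := by conv_lhs => rw [← haw, aia]
          rw [e2, hbw, haw]
        · have e3 : a⁻¹ w ≠ z := fun h => h2 (by rw [← h, aai])
          have e4 : a (a⁻¹ w) ≠ a⁻¹ w := fun h => haw (by
            rw [aai] at h
            conv_lhs => rw [h, aai])
          rw [hb _ e3 e4, aai]
      · have haw := ha w h1 hbw
        have e3 : b⁻¹ w ≠ z := fun h => h3 (by rw [← h, bbi])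
        have e4 : b (b⁻¹ w) ≠ b⁻¹ w := fun h => hbw (by
            rw [bbi] at h
            conv_lhs => rw [h, bbi])
        have e5 := ha _ e3 e4
        have e6 : a⁻¹ (b⁻¹ w) = b⁻¹ w := by conv_lhs => rw [← e5, aia]
        rw [e6, bbi, haw]
    · rintro (rfl | rfl | rfl)
      · -- w = z
        have e3 : b⁻¹ w ≠ w := fun h => hbz (by
          have := bbi w
          rwa [h] at this)
        have e4 : b (b⁻¹ w) ≠ b⁻¹ w := fun h => e3 (by rw [bbi] at h; exact h.symm)
        have e5 := ha _ e3 e4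
        have e6 : a⁻¹ (b⁻¹ w) = b⁻¹ w := by conv_lhs => rw [← e5, aia]
        rw [e6, bbi]; exact haz
      · have e1 : b⁻¹ (a z) = a z := by conv_lhs => rw [← hbaz, bib]
        rw [e1, aia, habz]; exact hne.symm
      · rw [bib]
        have e3 : a⁻¹ z ≠ z := fun h => haz (by
          have := aai z
          rwa [h] at this)
        have e4 : a (a⁻¹ z) ≠ a⁻¹ z := fun h => e3 (by rw [aai] at h; exact h.symm)
        rw [hb _ e3 e4, aai]; exact hbz.symm
  rw [← card_support_eq_three_iff, hsupp, Finset.card_insert_of_notMem, Finset.card_insert_of_notMem,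
    Finset.card_singleton]
  · rw [Finset.mem_singleton]; exact hne
  · rw [Finset.mem_insert, Finset.mem_singleton]
    push Not
    exact ⟨haz.symm, hbz.symm⟩

variable {G Ω : Type*} [Group G] [MulAction G Ω] [Finite G] [Fintype Ω] [DecidableEq Ω]

theorem twotrans (hprim : MulAction.IsPreprimitive G Ω)
    (h2 : ∀ x y x' y' : Ω, x ≠ y → x' ≠ y' → Ob G x y x' y')
    (hA : ¬ alternatingGroup Ω ≤ (MulAction.toPermHom G Ω).range) (g : G) {x₀ : Ω} (hx₀ : g • x₀ ≠ x₀) :
    Fintype.card Ω ≤ (Finset.univ.filter fun x : Ω => g • x ≠ x).card ^ 2 := by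
  classical
  have : Fintype G := Fintype.ofFinite G
  set S := Finset.univ.filter fun x : Ω => g • x ≠ x with hS
  have hmS : ∀ x, x ∈ S ↔ g • x ≠ x := fun x => by simp [hS]
  set n := Fintype.card Ω with hn
  -- no conjugate meets `S` in one point
  have hI : ∀ h : G, (S.filter fun x => h • x ∈ S).card ≠ 1 := by
    intro h h1
    obtain ⟨x, hx⟩ := Finset.card_eq_one.1 h1
    have hx' : ∀ w, (w ∈ S ∧ h • w ∈ S) ↔ w = x := by
      intro w
      have h4 : w ∈ S.filter (fun x => h • x ∈ S) ↔ w ∈ ({x} : Finset Ω) := by rw [hx]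
      rw [Finset.mem_filter, Finset.mem_singleton] at h4
      exact h4
    apply hA
    apply Equiv.Perm.alternatingGroup_le_of_isPreprimitive_of_isThreeCycle_mem (g :=
      MulAction.toPermHom G Ω g * MulAction.toPermHom G Ω (h * g * h⁻¹) * (MulAction.toPermHom G Ω g)⁻¹ *
        (MulAction.toPermHom G Ω (h * g * h⁻¹))⁻¹)
    · let f : Ω →ₑ[(MulAction.toPermHom G Ω).rangeRestrict] Ω := ⟨id, fun m x => rfl⟩
      exact MulAction.IsPreprimitive.of_surjective (f := f) Function.surjective_id
    · apply three_cycle _ _ (h • x)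
      intro w
      have e1 : (MulAction.toPermHom G Ω g) w = g • w := rfl
      have e2 : (MulAction.toPermHom G Ω (h * g * h⁻¹)) w = h • g • h⁻¹ • w := by
        show (h * g * h⁻¹) • w = _
        rw [mul_smul, mul_smul]
      rw [e1, e2]
      have e3 : h • g • h⁻¹ • w ≠ w ↔ h⁻¹ • w ∈ S := by
        rw [hmS, not_iff_not, eq_inv_smul_iff]
      rw [e3, ← hmS w]
      have e4 := hx' (h⁻¹ • w)
      rw [smul_inv_smul] at e4
      rw [and_comm, e4, inv_smul_eq_iff]
    · exact Subgroup.mul_mem _ (Subgroup.mul_mem _ (Subgroup.mul_mem _ ⟨_, rfl⟩ ⟨_, rfl⟩)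
        (Subgroup.inv_mem _ ⟨_, rfl⟩)) (Subgroup.inv_mem _ ⟨_, rfl⟩)
  -- counting
  let K : Ω × Ω → Ω × Ω → Finset G := fun p q => Finset.univ.filter fun h => (h • p.1, h • p.2) = q
  have hK : ∀ p q h, h ∈ K p q ↔ h • p.1 = q.1 ∧ h • p.2 = q.2 := by
    intro p q h
    simp [K, Prod.ext_iff]
  have hKeq : ∀ p q p' q' : Ω × Ω, p.1 ≠ p.2 → q.1 ≠ q.2 → p'.1 ≠ p'.2 → q'.1 ≠ q'.2 →
      (K p q).card = (K p' q').card := by
    intro p q p' q' h1 h3 h4 h5
    obtain ⟨a, ha1, ha2⟩ := h2 _ _ _ _ h4 h1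
    obtain ⟨b, hb1, hb2⟩ := h2 _ _ _ _ h3 h5
    apply Finset.card_bij (fun h _ => b * h * a)
    · intro h hh
      rw [hK] at hh ⊢
      rw [mul_smul, mul_smul, mul_smul, mul_smul, ha1, ha2, hh.1, hh.2, hb1, hb2]
      exact ⟨rfl, rfl⟩
    · intro x _ y _ h
      exact mul_left_cancel (mul_right_cancel h)
    · intro h hh
      rw [hK] at hh
      refine ⟨b⁻¹ * h * a⁻¹, ?_, by group⟩
      rw [hK, mul_smul, mul_smul, mul_smul, mul_smul, ← ha1, ← ha2, inv_smul_smul, inv_smul_smul,
        hh.1, hh.2, ← hb1, ← hb2, inv_smul_smul, inv_smul_smul]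
      exact ⟨rfl, rfl⟩
  have hne₀ : x₀ ≠ g • x₀ := hx₀.symm
  set c := (K (x₀, g • x₀) (x₀, g • x₀)).card with hc
  have hcK : ∀ p q : Ω × Ω, p.1 ≠ p.2 → q.1 ≠ q.2 → (K p q).card = c := fun p q h1 h3 =>
    hKeq _ _ _ _ h1 h3 hne₀ hne₀
  have hcpos : 0 < c := Finset.card_pos.2 ⟨1, by rw [hK]; simp⟩
  -- one point
  have hc1 : ∀ x y : Ω, (Finset.univ.filter fun h : G => h • x = y).card = (n - 1) * c := by
    intro x y
    obtain ⟨x', hx'⟩ : ∃ x', x ≠ x' := by
      by_cases hxx : x = x₀
      · exact ⟨g • x₀, by rw [hxx]; exact hne₀⟩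
      · exact ⟨x₀, hxx⟩
    rw [Finset.card_eq_sum_card_fiberwise (f := fun h => h • x') (t := Finset.univ.erase y)]
    · rw [Finset.sum_congr rfl (g := fun _ => c), Finset.sum_const, smul_eq_mul,
        Finset.card_erase_of_mem (Finset.mem_univ _), Finset.card_univ]
      intro y' hy'
      rw [← hcK (x, x') (y, y') hx' (Finset.ne_of_mem_erase hy').symm]
      congr 1
      ext h
      rw [Finset.mem_filter, Finset.mem_filter, hK]
      simp
    · intro h hh
      rw [Finset.mem_coe, Finset.mem_filter] at hh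
      rw [Finset.mem_coe, Finset.mem_erase]
      refine ⟨fun h' => hx' ?_, Finset.mem_univ _⟩
      exact MulAction.injective h (hh.2.trans h'.symm)
  have hsum1 : ∑ h : G, (S.filter fun x => h • x ∈ S).card = S.card * (S.card * ((n - 1) * c)) := by
    have e1 : ∀ h : G, (S.filter fun x => h • x ∈ S).card = ∑ x ∈ S, if h • x ∈ S then 1 else 0 :=
      fun h => Finset.card_filter _ _
    rw [Finset.sum_congr rfl (fun h _ => e1 h), Finset.sum_comm,
      Finset.sum_congr rfl (g := fun _ => S.card * ((n - 1) * c)), Finset.sum_const, smul_eq_mul]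
    intro x _
    rw [← Finset.card_filter, Finset.card_eq_sum_card_fiberwise (f := fun h => h • x) (t := S)]
    · rw [Finset.sum_congr rfl (g := fun _ => (n - 1) * c), Finset.sum_const, smul_eq_mul]
      intro y hy
      rw [← hc1 x y]
      congr 1
      ext h
      simp only [Finset.mem_filter, Finset.mem_univ, true_and]
      constructor
      · rintro ⟨-, h3⟩; exact h3
      · intro h3; exact ⟨by rw [h3]; exact hy, h3⟩
    · intro h hh
      rw [Finset.mem_coe, Finset.mem_filter] at hh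
      exact hh.2
  have hsum2 : ∑ h : G, (S.filter fun x => h • x ∈ S).offDiag.card =
      S.offDiag.card * (S.offDiag.card * c) := by
    have e1 : ∀ h : G, (S.filter fun x => h • x ∈ S).offDiag.card =
        ∑ p ∈ S.offDiag, if h • p.1 ∈ S ∧ h • p.2 ∈ S then 1 else 0 := by
      intro h
      rw [← Finset.card_filter]
      congr 1
      ext p
      simp only [Finset.mem_offDiag, Finset.mem_filter]
      tauto
    rw [Finset.sum_congr rfl (fun h _ => e1 h), Finset.sum_comm,
      Finset.sum_congr rfl (g := fun _ => S.offDiag.card * c), Finset.sum_const, smul_eq_mul]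
    intro p hp
    rw [Finset.mem_offDiag] at hp
    rw [← Finset.card_filter, Finset.card_eq_sum_card_fiberwise (f := fun h => (h • p.1, h • p.2))
      (t := S.offDiag)]
    · rw [Finset.sum_congr rfl (g := fun _ => c), Finset.sum_const, smul_eq_mul]
      intro q hq
      rw [Finset.mem_offDiag] at hq
      rw [← hcK p q hp.2.2 hq.2.2]
      congr 1
      ext h
      rw [Finset.mem_filter, Finset.mem_filter, hK]
      constructor
      · rintro ⟨-, h3⟩
        exact ⟨congrArg Prod.fst h3, congrArg Prod.snd h3⟩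
      · rintro ⟨h3, h4⟩
        exact ⟨⟨Finset.mem_univ _, by rw [h3]; exact hq.1, by rw [h4]; exact hq.2.1⟩, Prod.ext h3 h4⟩
    · intro h hh
      rw [Finset.mem_coe, Finset.mem_filter] at hh
      rw [Finset.mem_coe, Finset.mem_offDiag]
      exact ⟨hh.2.1, hh.2.2, fun h' => hp.2.2 (MulAction.injective h h')⟩
  have hle : ∑ h : G, (S.filter fun x => h • x ∈ S).card ≤
      ∑ h : G, (S.filter fun x => h • x ∈ S).offDiag.card := by
    apply Finset.sum_le_sum
    intro h _
    rw [Finset.offDiag_card]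
    have h3 := hI h
    set I := (S.filter fun x => h • x ∈ S).card
    rcases Nat.eq_zero_or_pos I with h4 | h4
    · rw [h4]
    · have h5 : 2 ≤ I := by omega
      have h6 : 2 * I ≤ I * I := Nat.mul_le_mul_right I h5
      omega
  rw [hsum1, hsum2, Finset.offDiag_card] at hle
  have hSpos : 0 < S.card := Finset.card_pos.2 ⟨x₀, (hmS _).2 hx₀⟩
  obtain ⟨s, hs⟩ : ∃ s, S.card = s + 1 := ⟨S.card - 1, by omega⟩
  rw [hs] at hle ⊢
  have e1 : (s + 1) * (s + 1) - (s + 1) = (s + 1) * s := by
    have : (s + 1) * (s + 1) = (s + 1) * s + (s + 1) := by ring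
    omega
  rw [e1] at hle
  have h7 : ((s + 1) * (s + 1) * c) * (n - 1) ≤ ((s + 1) * (s + 1) * c) * (s * s) := by
    calc ((s + 1) * (s + 1) * c) * (n - 1) = (s + 1) * ((s + 1) * ((n - 1) * c)) := by ring
      _ ≤ _ := hle
      _ = _ := by ring
  have h8 := Nat.le_of_mul_le_mul_left h7 (by positivity)
  have h9 : (s + 1) ^ 2 = s * s + 2 * s + 1 := by ring
  omega

/-- the minimal degree bound -/
theorem bound (hprim : MulAction.IsPreprimitive G Ω)
    (hA : ¬ alternatingGroup Ω ≤ (MulAction.toPermHom G Ω).range) (g : G) {x₀ : Ω}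
    (hx₀ : g • x₀ ≠ x₀) :
    Fintype.card Ω ≤ (2 * (Finset.univ.filter fun x : Ω => g • x ≠ x).card + 1) ^ 2 := by
  classical
  by_cases h2 : ∀ x y x' y' : Ω, x ≠ y → x' ≠ y' → Ob G x y x' y'
  · refine (twotrans hprim h2 hA g hx₀).trans ?_
    apply Nat.pow_le_pow_left
    omega
  · push Not at h2
    obtain ⟨x, y, x', y', hxy, hxy', hnot⟩ := h2
    have hδ : ∃ δ, δ ≠ x₀ ∧ ¬ Ob G x₀ (g • x₀) x₀ δ := by
      by_contra hcon
      push Not at hcon
      have key : ∀ a b : Ω, a ≠ b → Ob G x₀ (g • x₀) a b := by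
        intro a b hab
        obtain ⟨k, hk⟩ := MulAction.exists_smul_eq G a x₀
        have h1 := hcon (k • b) (fun h => hab (MulAction.injective k (hk.trans h.symm)))
        have h3 := Ob.smul k a b
        rw [hk] at h3
        exact h1.trans h3.symm
      exact hnot ((key x y hxy).symm.trans (key x' y' hxy'))
    refine (uniprimitive hprim (α := x₀) (β := g • x₀) hx₀.symm hδ).trans ?_
    apply Nat.pow_le_pow_left
    have h1 : Dd G x₀ (g • x₀) ⊆ Finset.univ.filter fun x => g • x ≠ x := by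
      intro z hz
      rw [mem_Dd] at hz
      rw [Finset.mem_filter]
      refine ⟨Finset.mem_univ _, fun h => hz ⟨g, rfl, h⟩⟩
    have := Finset.card_le_card h1
    omega

end H95.MinDeg
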